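import Cfsg.Agent.S0713
import Cfsg.Agent.H663.AltD.Main

/-!
# S5719, the Lyons group: subgroups of `A₁₁` of index at most 66 (helper698)

* `dvd_of_not_dvd` : a proper subgroup of `A₁₁` of index prime to 11 has index divisible by 105;
* `exists_inv` : a subgroup of index at most 66 contains an involution of type `2^4`;
* `eq_stab` : a subgroup of index 11 is the stabiliser of a letter.
-/

set_option autoImplicit false
set_option maxRecDepth 100000

namespace Cfsg.Agent.H698.IFLy

open Equiv Equiv.Perm Subgroup MulAction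

/-- an element of order `p` lies in a conjugate of `K` if `p ∤ |G : K|` -/
theorem exists_conj_mem {G : Type*} [Group G] [Finite G] {p : ℕ} (hp : p.Prime) {y : G} (hy : y ^ p = 1)
    (K : Subgroup G) (h : ¬ p ∣ K.index) : ∃ x : G, x⁻¹ * y * x ∈ K := by
  have : Fact p.Prime := ⟨hp⟩
  have hz : IsPGroup p (zpowers y) := by
    rintro ⟨_, i, rfl⟩
    refine ⟨1, Subtype.ext ?_⟩
    show (y ^ i) ^ p ^ 1 = 1
    rw [pow_one, ← zpow_natCast, ← zpow_mul, mul_comm, zpow_mul, zpow_natCast, hy, one_zpow]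
  obtain ⟨c, hc⟩ := hz.nonempty_fixed_point_of_prime_not_dvd_card (G ⧸ K) h
  obtain ⟨x, rfl⟩ := QuotientGroup.mk_surjective c
  refine ⟨x, ?_⟩
  have h1 : ((y * x : G) : G ⧸ K) = x := hc ⟨y, mem_zpowers y⟩
  have h2 := QuotientGroup.eq.1 h1.symm
  rwa [← mul_assoc] at h2

/-- a free action of a finite group -/
theorem card_dvd_of_free {G X : Type*} [Group G] [Finite G] [MulAction G X] [Finite X]
    (h : ∀ g : G, g ≠ 1 → ∀ x : X, g • x ≠ x) : Nat.card G ∣ Nat.card X := by
  classical
  have := Fintype.ofFinite G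
  have := Fintype.ofFinite X
  have h1 := MulAction.sum_card_fixedBy_eq_card_orbits_mul_card_group G X
  have h2 : ∑ g : G, Fintype.card (fixedBy X g) = Fintype.card X := by
    rw [Finset.sum_eq_single (1 : G)]
    · refine Fintype.card_congr (Equiv.subtypeUnivEquiv fun x => ?_)
      exact one_smul G x
    · intro g _ hg
      rw [Fintype.card_eq_zero_iff]
      exact ⟨fun x => h g hg x x.2⟩
    · intro h3
      exact absurd (Finset.mem_univ _) h3
  rw [h2] at h1
  rw [Nat.card_eq_fintype_card, Nat.card_eq_fintype_card, h1]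
  exact Dvd.intro_left _ rfl

theorem preprim {K : Subgroup (alternatingGroup (Fin 11))} (h11 : 11 ∣ Nat.card K) :
    IsPreprimitive (K.map (alternatingGroup (Fin 11)).subtype) (Fin 11) := by
  have : Fact (Nat.Prime 11) := ⟨by norm_num⟩
  obtain ⟨z, hz⟩ := exists_prime_orderOf_dvd_card' (G := K) 11 h11
  set g : Perm (Fin 11) := ((z : alternatingGroup (Fin 11)) : Perm (Fin 11)) with hg
  have hgp : orderOf g = 11 := (Subgroup.orderOf_coe z.1).trans ((Subgroup.orderOf_coe z).trans hz)
  have hcyc : g.IsCycle := isCycle_of_prime_order' (by rw [hgp]; norm_num) (by rw [hgp, Fintype.card_fin]; norm_num)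
  have hsupp : g.support = Finset.univ := by
    rw [← Finset.card_eq_iff_eq_univ, ← hcyc.orderOf, hgp, Fintype.card_fin]
  have hmem : ∀ i : ℤ, g ^ i ∈ K.map (alternatingGroup (Fin 11)).subtype := by
    intro i
    have h1 : g ∈ K.map (alternatingGroup (Fin 11)).subtype := ⟨z.1, z.2, rfl⟩
    exact Subgroup.zpow_mem _ h1 i
  have : IsPretransitive (K.map (alternatingGroup (Fin 11)).subtype) (Fin 11) := by
    refine ⟨fun a b => ?_⟩
    obtain ⟨i, hi⟩ := hcyc.exists_zpow_eq (x := a) (y := b) (Perm.mem_support.1 (by rw [hsupp]; exact Finset.mem_univ _))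
      (Perm.mem_support.1 (by rw [hsupp]; exact Finset.mem_univ _))
    exact ⟨⟨g ^ i, hmem i⟩, hi⟩
  exact IsPreprimitive.of_prime_card (by rw [Nat.card_eq_fintype_card, Fintype.card_fin]; norm_num)

theorem dvd_index {K : Subgroup (alternatingGroup (Fin 11))} (hK : K ≠ ⊤) (h11 : ¬ 11 ∣ K.index) {p : ℕ}
    (hp : p.Prime) (hp8 : p ≤ 8) {y : Perm (Fin 11)} (hyA : y ∈ alternatingGroup (Fin 11)) (hy : y.IsCycle)
    (hyp : y.support.card = p) : p ∣ K.index := by
  by_contra hcon
  have hc11 : 11 ∣ Nat.card K := by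
    have h1 : 11 ∣ K.index * Nat.card K := by
      rw [K.index_mul_card, nat_card_alternatingGroup, Nat.card_eq_fintype_card, Fintype.card_fin]
      decide
    exact ((by norm_num : Nat.Prime 11).dvd_mul.1 h1).resolve_left h11
  have hyo : y ^ p = 1 := by rw [← hyp, ← hy.orderOf, pow_orderOf_eq_one]
  obtain ⟨x, hx⟩ := exists_conj_mem hp (y := (⟨y, hyA⟩ : alternatingGroup (Fin 11))) (Subtype.ext hyo) K hcon
  have hconj : ∃ u : Perm (Fin 11), u * y * u⁻¹ ∈ K.map (alternatingGroup (Fin 11)).subtype := by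
    refine ⟨(x : Perm (Fin 11))⁻¹, _, hx, ?_⟩
    show ((x : Perm (Fin 11))⁻¹ * y * x) = _
    rw [inv_inv]
  obtain ⟨u, hu⟩ := hconj
  have h1 := Cfsg.Agent.S0713.result _ (preprim hc11) hp (by rw [Fintype.card_fin]; norm_num)
    (by rw [Fintype.card_fin]; omega) (g := u * y * u⁻¹) hy.conj (by rw [card_support_conj, hyp]) hu
  apply hK
  rw [eq_top_iff]
  intro x _
  obtain ⟨y, hy, hyx⟩ := h1 x.2
  have h2 : y = x := Subtype.ext hyx
  rw [← h2]
  exact hy

def c3 : Perm (Fin 11) := swap 0 1 * swap 1 2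
def c5 : Perm (Fin 11) := swap 0 1 * swap 1 2 * swap 2 3 * swap 3 4
def c7 : Perm (Fin 11) := swap 0 1 * swap 1 2 * swap 2 3 * swap 3 4 * swap 4 5 * swap 5 6

theorem c3_type : c3.cycleType = {3} := by decide +kernel
theorem c5_type : c5.cycleType = {5} := by decide +kernel
theorem c7_type : c7.cycleType = {7} := by decide +kernel

theorem prime_type {y : Perm (Fin 11)} {p : ℕ} (h : y.cycleType = {p}) : y.IsCycle ∧ y.support.card = p := by
  refine ⟨card_cycleType_eq_one.1 (by rw [h]; rfl), ?_⟩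
  rw [← y.sum_cycleType, h, Multiset.sum_singleton]

/-- a proper subgroup of index prime to 11 -/
theorem dvd_of_not_dvd {K : Subgroup (alternatingGroup (Fin 11))} (hK : K ≠ ⊤) (h11 : ¬ 11 ∣ K.index) :
    105 ∣ K.index := by
  have h3 : 3 ∣ K.index := dvd_index hK h11 (by norm_num) (by norm_num)
    (by rw [mem_alternatingGroup]; decide +kernel) (prime_type c3_type).1 (prime_type c3_type).2
  have h5 : 5 ∣ K.index := dvd_index hK h11 (by norm_num) (by norm_num)
    (by rw [mem_alternatingGroup]; decide +kernel) (prime_type c5_type).1 (prime_type c5_type).2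
  have h7 : 7 ∣ K.index := dvd_index hK h11 (by norm_num) (by norm_num)
    (by rw [mem_alternatingGroup]; decide +kernel) (prime_type c7_type).1 (prime_type c7_type).2
  omega

/-- the translations of eight letters -/
def xr (v : Fin 8) : Perm (Fin 11) where
  toFun x := if x.val < 8 then Fin.ofNat 11 (x.val ^^^ v.val) else x
  invFun x := if x.val < 8 then Fin.ofNat 11 (x.val ^^^ v.val) else x
  left_inv := by revert v; decide +kernel
  right_inv := by revert v; decide +kernel

theorem xr_mul : ∀ v w : Fin 8, xr v * xr w = xr (Fin.ofNat 8 (v.val ^^^ w.val)) := by decide +kernel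
theorem xr_mem : ∀ v : Fin 8, xr v ∈ alternatingGroup (Fin 11) := by
  simp only [mem_alternatingGroup]
  decide +kernel
theorem xr_sq : ∀ v : Fin 8, xr v * xr v = 1 := by decide +kernel
theorem xr_supp : ∀ v : Fin 8, v ≠ 0 → (xr v).support.card = 8 := by decide +kernel
theorem xr_zero : xr 0 = 1 := by decide +kernel
theorem xr_inj : ∀ v w : Fin 8, xr v = xr w → v = w := by decide +kernel

/-- the elementary abelian group of order eight -/
def E8 : Subgroup (alternatingGroup (Fin 11)) where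
  carrier := {σ | ∃ v : Fin 8, (σ : Perm (Fin 11)) = xr v}
  one_mem' := ⟨0, xr_zero.symm⟩
  mul_mem' := by
    rintro a b ⟨v, hv⟩ ⟨w, hw⟩
    refine ⟨Fin.ofNat 8 (v.val ^^^ w.val), ?_⟩
    rw [← xr_mul v w, ← hv, ← hw]
    rfl
  inv_mem' := by
    rintro a ⟨v, hv⟩
    refine ⟨v, ?_⟩
    rw [Subgroup.coe_inv, hv]
    exact inv_eq_of_mul_eq_one_left (xr_sq v)

theorem card_E8 : Nat.card E8 = 8 := by
  have e : E8 ≃ Fin 8 :=
    (Equiv.ofBijective (fun v : Fin 8 => (⟨⟨xr v, xr_mem v⟩, v, rfl⟩ : E8)) ⟨fun v w h => by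
      apply xr_inj
      exact congrArg (fun x : E8 => ((x : alternatingGroup (Fin 11)) : Perm (Fin 11))) h, fun x => by
      obtain ⟨v, hv⟩ := x.2
      exact ⟨v, Subtype.ext (Subtype.ext hv.symm)⟩⟩).symm
  rw [Nat.card_congr e, Nat.card_eq_fintype_card, Fintype.card_fin]

/-- a subgroup of index at most 66 contains an involution of type `2^4` -/
theorem exists_inv {K : Subgroup (alternatingGroup (Fin 11))} (h : K.index ≤ 66) :
    ∃ σ ∈ K, (σ : Perm (Fin 11)) * σ = 1 ∧ (σ : Perm (Fin 11)).support.card = 8 := by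
  by_contra hcon
  push Not at hcon
  have hpos : 0 < K.index := Nat.pos_of_ne_zero Subgroup.index_ne_zero_of_finite
  have h8 : 8 ∣ K.index := by
    rw [← card_E8]
    refine card_dvd_of_free (G := E8) (X := alternatingGroup (Fin 11) ⧸ K) ?_
    intro g hg c hc
    obtain ⟨x, rfl⟩ := QuotientGroup.mk_surjective c
    have h1 : (((g : alternatingGroup (Fin 11)) * x : alternatingGroup (Fin 11)) : alternatingGroup (Fin 11) ⧸ K) = x := hc
    have h2 := QuotientGroup.eq.1 h1.symm
    obtain ⟨v, hv⟩ := g.2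
    have hv0 : v ≠ 0 := by
      rintro rfl
      apply hg
      rw [xr_zero] at hv
      exact Subtype.ext (Subtype.ext hv)
    have h3 : ((x⁻¹ * ((g : alternatingGroup (Fin 11)) * x) : alternatingGroup (Fin 11)) : Perm (Fin 11)) =
        (x : Perm (Fin 11))⁻¹ * xr v * (x : Perm (Fin 11)) := by
      rw [← hv]
      rfl
    refine hcon _ h2 ?_ ?_
    · rw [h3]
      calc (x : Perm (Fin 11))⁻¹ * xr v * x * ((x : Perm (Fin 11))⁻¹ * xr v * x) = (x : Perm (Fin 11))⁻¹ * (xr v * xr v) * x := by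
            group
        _ = 1 := by rw [xr_sq]; group
    · rw [h3]
      have h4 : (x : Perm (Fin 11))⁻¹ * xr v * (x : Perm (Fin 11)) = (x : Perm (Fin 11))⁻¹ * xr v * ((x : Perm (Fin 11))⁻¹)⁻¹ := by
        rw [inv_inv]
      rw [h4, card_support_conj, xr_supp v hv0]
  by_cases h11 : 11 ∣ K.index
  · omega
  · have hK : K ≠ ⊤ := by
      rintro rfl
      rw [Subgroup.index_top] at h8
      omega
    have := dvd_of_not_dvd hK h11
    omega

/-- the index of a subgroup of index at most thirteen -/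
theorem index_eq {K : Subgroup (alternatingGroup (Fin 11))} (hK : K ≠ ⊤) (h : K.index ≤ 13) : K.index = 11 := by
  have hpos : 0 < K.index := Nat.pos_of_ne_zero Subgroup.index_ne_zero_of_finite
  by_cases h11 : 11 ∣ K.index
  · omega
  · have := dvd_of_not_dvd hK h11
    omega

theorem card_alt : Nat.card (alternatingGroup (Fin 11)) = 19958400 := by
  rw [nat_card_alternatingGroup, Nat.card_eq_fintype_card, Fintype.card_fin]
  decide

/-- **A subgroup of index 11 is the stabiliser of a letter.** -/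
theorem eq_stab {K : Subgroup (alternatingGroup (Fin 11))} (h : K.index = 11) :
    ∃ i : Fin 11, ∀ σ : alternatingGroup (Fin 11), σ ∈ K ↔ (σ : Perm (Fin 11)) i = i := by
  have hcard : Nat.card K = 1814400 := by
    have h1 := K.index_mul_card
    rw [h, card_alt] at h1
    omega
  have hnt : ¬ ∀ a b : Fin 11, ∃ x ∈ K, (x : Perm (Fin 11)) a = b := by
    intro ht
    have hp : IsPretransitive K (Fin 11) := ⟨fun a b => by
      obtain ⟨x, hx, hxa⟩ := ht a b
      exact ⟨⟨x, hx⟩, hxa⟩⟩
    have h1 := (stabilizer K (0 : Fin 11)).index_mul_card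
    rw [MulAction.index_stabilizer_of_transitive, Nat.card_eq_fintype_card (α := Fin 11), Fintype.card_fin, hcard] at h1
    omega
  obtain ⟨s, hs, h0, h2⟩ := Cfsg.Agent.H663.AltD.exists_inv hnt
  have h3 := hs.two_index_ge (by norm_num)
  rw [h] at h3
  have h4 : s.card = 1 := by
    have h5 : s.card ≤ 5 := by omega
    interval_cases hc : s.card
    · rfl
    all_goals
      exfalso
      revert h3
      decide
  obtain ⟨i, rfl⟩ := Finset.card_eq_one.1 h4
  let S : Subgroup (alternatingGroup (Fin 11)) := stabilizer (alternatingGroup (Fin 11)) i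
  have hS : ∀ σ : alternatingGroup (Fin 11), σ ∈ S ↔ (σ : Perm (Fin 11)) i = i := fun σ => Iff.rfl
  have hKS : K ≤ S := by
    intro x hx
    rw [hS]
    have := (hs x hx i).2 (Finset.mem_singleton_self i)
    exact Finset.mem_singleton.1 this
  have hST : S ≠ ⊤ := by
    intro h5
    have h6 : ∀ i : Fin 11, (finRotate 11) i ≠ i := by decide +kernel
    have h7 : finRotate 11 ∈ alternatingGroup (Fin 11) := by
      rw [mem_alternatingGroup]
      decide +kernel
    apply h6 i
    have h8 : (⟨finRotate 11, h7⟩ : alternatingGroup (Fin 11)) ∈ S := by rw [h5]; exact Subgroup.mem_top _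
    exact (hS _).1 h8
  have h5 := Subgroup.relIndex_mul_index hKS
  rw [h] at h5
  have h6 : S.index ≠ 1 := fun h7 => hST (Subgroup.index_eq_one.1 h7)
  have h7 : S.index ∣ 11 := Dvd.intro_left _ h5
  have h8 : S.index = 11 := ((by norm_num : Nat.Prime 11).eq_one_or_self_of_dvd _ h7).resolve_left h6
  have h9 : K.relIndex S = 1 := by
    rw [h8] at h5
    omega
  have h10 : S ≤ K := Subgroup.relIndex_eq_one.1 h9
  exact ⟨i, fun σ => ⟨fun hσ => (hS σ).1 (hKS hσ), fun hσ => h10 ((hS σ).2 hσ)⟩⟩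

/-! ### the group `4 × 4` -/

def aa : Perm (Fin 11) := swap 0 1 * swap 1 2 * swap 2 3 * swap 8 9
def bb : Perm (Fin 11) := swap 4 5 * swap 5 6 * swap 6 7 * swap 8 9

def ab (i j : Fin 4) : Perm (Fin 11) := aa ^ i.val * bb ^ j.val

theorem ab_mul : ∀ i j k l : Fin 4, ab i j * ab k l = ab (i + k) (j + l) := by decide +kernel
theorem ab_inv : ∀ i j : Fin 4, ab (-i) (-j) * ab i j = 1 := by decide +kernel
theorem ab_zero : ab 0 0 = 1 := by decide +kernel
theorem ab_inj : ∀ i j k l : Fin 4, ab i j = ab k l → i = k ∧ j = l := by decide +kernel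
theorem ab_mem : ∀ i j : Fin 4, ab i j ∈ alternatingGroup (Fin 11) := by
  simp only [mem_alternatingGroup]
  decide +kernel
theorem ab_invol : ∀ i j : Fin 4, ab i j * ab i j = 1 → 8 ∣ (ab i j).support.card → ab i j = 1 ∨ ab i j = ab 2 2 := by
  decide +kernel
theorem ab22_sq : ab 2 2 * ab 2 2 = 1 := by decide +kernel
theorem ab22_supp : (ab 2 2).support.card = 8 := by decide +kernel

def Q16 : Subgroup (Perm (Fin 11)) where
  carrier := {σ | ∃ i j : Fin 4, σ = ab i j}
  one_mem' := ⟨0, 0, ab_zero.symm⟩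
  mul_mem' := by
    rintro a b ⟨i, j, rfl⟩ ⟨k, l, rfl⟩
    exact ⟨_, _, ab_mul i j k l⟩
  inv_mem' := by
    rintro a ⟨i, j, rfl⟩
    exact ⟨-i, -j, inv_eq_of_mul_eq_one_left (ab_inv i j)⟩

theorem card_Q16 : Nat.card Q16 = 16 := by
  have e : Q16 ≃ Fin 4 × Fin 4 :=
    (Equiv.ofBijective (fun v : Fin 4 × Fin 4 => (⟨ab v.1 v.2, v.1, v.2, rfl⟩ : Q16)) ⟨fun v w h => by
      obtain ⟨h1, h2⟩ := ab_inj _ _ _ _ (congrArg (fun x : Q16 => (x : Perm (Fin 11))) h)
      exact Prod.ext h1 h2, fun x => by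
      obtain ⟨i, j, h⟩ := x.2
      exact ⟨(i, j), Subtype.ext h.symm⟩⟩).symm
  rw [Nat.card_congr e, Nat.card_prod, Nat.card_eq_fintype_card, Fintype.card_fin]

/-! ### the number of involutions -/

theorem card_type : Nat.card {σ : Perm (Fin 11) // σ.cycleType = {2, 2, 2, 2}} = 17325 := by
  classical
  rw [Nat.card_eq_fintype_card, Fintype.card_subtype, card_of_cycleType, Fintype.card_fin]
  decide +kernel

theorem type_facts {σ : Perm (Fin 11)} (h : σ.cycleType = {2, 2, 2, 2}) :
    σ * σ = 1 ∧ σ.support.card = 8 ∧ σ ∈ alternatingGroup (Fin 11) := by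
  refine ⟨?_, ?_, ?_⟩
  · rw [← pow_two, ← orderOf_dvd_iff_pow_eq_one, ← lcm_cycleType, h]
    decide
  · rw [← σ.sum_cycleType, h]
    rfl
  · rw [mem_alternatingGroup, sign_of_cycleType, h]
    decide

end Cfsg.Agent.H698.IFLy
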