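import Cfsg.Agent.H698.IF.LyB
import Cfsg.Agent.H209.IF.Row
import Cfsg.Agent.H677.IF.Kill
import Cfsg.Agent.H809.IF.EngC
import Cfsg.Agent.TypeM.FactsLy
import Cfsg.Agent.TypeM.OutLyFin

/-!
# S5719, the row of the Lyons group (helper698)

`t ∈ A`: `|C(t) : C_A(t)| ≤ 66`, so `A` contains a second involution of `C(t)`, `f(t) ≤ 13` and `C_A(t) = C(t)` or `2.A₁₀`.
If `C(t) ≤ A` for one `t` then for all, `kill_inner`. Otherwise `f(t) = 11`, `n ≡ 27 mod 32`, `n ∣ 3³·5⁴·11·31·37·67`,
`11⁶ < n ≤ 4528601`: impossible.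
-/

set_option autoImplicit false
set_option linter.unusedSectionVars false

namespace Cfsg.Agent.H698.IFLy

open Equiv Subgroup Cfsg.Agent.TypeM.Two Cfsg.Agent.SporRec.TwoAn Cfsg.Agent.H209.Fxy

variable {T : Type*} [Group T] [Finite T]

theorem check : (List.range 4904).all (fun k => !(14265095625 % (3150 + k) == 0 && (14265095625 / (3150 + k)) % 32 == 27)) = true := by
  decide +kernel

theorem arith {n m : ℕ} (h : n * m = 14265095625) (h1 : 11 ^ 6 < n) (h2 : n * 34650 ≤ 11 * 11 * 1296826875)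
    (h3 : n % 32 = 27) : False := by
  have hm0 : 0 < m := by
    rcases Nat.eq_zero_or_pos m with rfl | h0
    · omega
    · exact h0
  have hn : n ≤ 4528601 := by omega
  have hm1 : 3150 ≤ m := by
    by_contra hcon
    have h4 : m ≤ 3149 := by omega
    have h5 : n * m ≤ 4528601 * 3149 := Nat.mul_le_mul hn h4
    omega
  have hm2 : m < 3150 + 4904 := by
    by_contra hcon
    have h4 : 8054 ≤ m := by omega
    have h5 : 1771562 * 8054 ≤ n * m := Nat.mul_le_mul (by omega) h4
    omega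
  have h4 := List.all_eq_true.1 check (m - 3150) (List.mem_range.2 (by omega))
  have h5 : 3150 + (m - 3150) = m := by omega
  rw [h5, ← h, Nat.mul_mod_left, Nat.mul_div_cancel _ hm0, h3] at h4
  revert h4
  decide

theorem fixSet_eq {A : Subgroup T} {t : T} (ht : t ∈ A) : fixSet A (MulAut.conj t) = F A t := by
  ext c
  constructor
  · rintro ⟨y, rfl, hy⟩
    rw [mem_F, smul_eq_iff]
    have h1 := A.mul_mem hy ht
    rw [MulAut.conj_apply] at h1
    have h2 : y⁻¹ * (t * y * t⁻¹) * t = y⁻¹ * t * y := by group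
    rwa [h2] at h1
  · intro h
    obtain ⟨y, rfl⟩ := QuotientGroup.mk_surjective c
    rw [mem_F, smul_eq_iff] at h
    refine ⟨y, rfl, ?_⟩
    rw [MulAut.conj_apply]
    have h1 := A.mul_mem h (A.inv_mem ht)
    have h2 : y⁻¹ * t * y * t⁻¹ = y⁻¹ * (t * y * t⁻¹) := by group
    rwa [h2] at h1

theorem ncard_F_conj {A : Subgroup T} (g t : T) : (F A (g * t * g⁻¹)).ncard = (F A t).ncard := by
  have h1 : F A (g * t * g⁻¹) = (fun β : T ⧸ A => g • β) '' F A t := by
    ext β
    constructor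
    · intro h
      refine ⟨g⁻¹ • β, ?_, smul_inv_smul g β⟩
      rw [mem_F] at h ⊢
      rw [mul_smul, mul_smul] at h
      rw [eq_inv_smul_iff]
      exact h
    · rintro ⟨γ, hγ, rfl⟩
      rw [mem_F] at hγ ⊢
      show (g * t * g⁻¹) • g • γ = g • γ
      rw [mul_smul, inv_smul_smul, mul_smul, hγ]
  rw [h1]
  exact Set.ncard_image_of_injective _ (MulAction.injective g)

theorem main [IsSimpleGroup T] (hna : ∃ a b : T, a * b ≠ b * a) (hT : Nat.card T = 51765179004000000) (L : MT 11 T)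
    (hin : ∀ σ : MulAut T, ∃ a : T, σ = MulAut.conj a) {A : Subgroup T} {Γ : Subgroup (MulAut T)} (h : IF A Γ) : False := by
  -- the first bound
  have h66 : ∀ t ∈ A, orderOf t = 2 → A.relIndex (centralizer ({t} : Set T)) ≤ 66 := by
    intro t ht ht2
    have h1 := ((Cfsg.Agent.H999.IFB.IF.E2' h hna ht ht2).2.2.2.2 _ le_rfl).1
    rw [index_cent L hT ht2] at h1
    by_contra hcon
    have h2 : 67 ^ 5 ≤ A.relIndex (centralizer ({t} : Set T)) ^ 5 := Nat.pow_le_pow_left (by omega) 5
    omega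
  have hsec : ∀ t ∈ A, orderOf t = 2 → ∃ s ∈ A, orderOf s = 2 ∧ s ≠ t ∧ s * t = t * s ∧
      34650 ≤ (centralizer ({s} : Set T)).relIndex (centralizer ({t} : Set T)) := by
    intro t ht ht2
    obtain ⟨L', rfl⟩ := L.exists_rebase (sq_one ht2) (ne_one ht2)
    obtain ⟨s, hsA, hs2, hst, hc⟩ := exists_second' L' ht (h66 _ ht ht2)
    exact ⟨s, hsA, hs2, hst, hc, le_relIndex L' hs2 hst hc⟩
  -- the second bound
  have hf13 : ∀ t ∈ A, orderOf t = 2 → fx A (MulAut.conj t) ≤ 13 := by
    intro t ht ht2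
    obtain ⟨s, hsA, hs2, hst, hc, hle⟩ := hsec t ht ht2
    have h1 := (Cfsg.Agent.H809.IFC.IF.E4 h hna hsA ht hs2 ht2 hst hc).2.2.1
    rw [index_cent L hT hs2] at h1
    by_contra hcon
    have h2 : 14 ^ 4 ≤ fx A (MulAut.conj t) ^ 4 := Nat.pow_le_pow_left (by omega) 4
    have h3 : 14 ^ 4 * 34650 ≤ fx A (MulAut.conj t) ^ 4 * (centralizer ({s} : Set T)).relIndex (centralizer ({t} : Set T)) :=
      Nat.mul_le_mul h2 hle
    omega
  have h13 : ∀ t ∈ A, orderOf t = 2 → A.relIndex (centralizer ({t} : Set T)) ≤ 13 := by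
    intro t ht ht2
    refine le_trans ?_ (hf13 t ht ht2)
    refine (Cfsg.Agent.H999.IFB.IF.E1 h ((h.conj t).2 ht) (by rw [Cfsg.Agent.H999.IFB.orderOf_conj hna, ht2])
      (B := centralizer ({t} : Set T)) fun b hb => ?_).1
    rw [mem_centralizer_singleton_iff] at hb
    rw [MulAut.conj_apply, mul_inv_eq_iff_eq_mul]
    exact hb.symm
  by_cases hone : ∃ t ∈ A, orderOf t = 2 ∧ centralizer ({t} : Set T) ≤ A
  · obtain ⟨t, -, ht2, htc⟩ := hone
    exact Cfsg.Agent.H677.SE.kill_inner h hna (fun σ _ _ => hin σ)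
      (fun u hu hu2 => all_of_one L h13 ht2 htc hu hu2)
  · push Not at hone
    have hN : Nat' A := by
      intro M hM
      rcases nat_stab' M hM (h13 _ hM M.orderOf_t) with h1 | ⟨-, h1⟩
      · exact absurd h1 (hone _ hM M.orderOf_t)
      · exact h1
    -- an involution of `A`
    obtain ⟨σ, hσ, hσ2, -⟩ := h.ex
    obtain ⟨t, rfl⟩ := hin σ
    have htA : t ∈ A := (h.conj t).1 hσ
    have ht2 : orderOf t = 2 := by rw [← hσ2, Cfsg.Agent.H999.IFB.orderOf_conj hna]
    have hFt : (F A t).ncard ≤ 13 := by rw [← fixSet_eq htA]; exact hf13 t htA ht2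
    have hF : ∀ u : T, orderOf u = 2 → (F A u).Nonempty ∧ (F A u).ncard ≤ 13 := by
      intro u hu
      obtain ⟨g, hg⟩ := L.conj_of_involutions (sq_one ht2) (ne_one ht2) (sq_one hu) (ne_one hu)
      rw [← hg]
      refine ⟨⟨((g : T) : T ⧸ A), ?_⟩, by rw [ncard_F_conj]; exact hFt⟩
      rw [mem_F, smul_eq_iff]
      have h1 : g⁻¹ * (g * t * g⁻¹) * g = t := by group
      rw [h1]
      exact htA
    have hmod := index_mod hN L hF
    have h11 : ∀ u ∈ A, orderOf u = 2 → fx A (MulAut.conj u) = 11 := by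
      intro u huA hu
      obtain ⟨L', rfl⟩ := L.exists_rebase (sq_one hu) (ne_one hu)
      rw [fx, fixSet_eq huA]
      exact ncard_F hN L' (hF _ hu).1 (hF _ hu).2
    have hn1 : 11 ^ 6 < A.index := by
      have := h.small _ hσ hσ2
      rwa [h11 t htA ht2] at this
    obtain ⟨s, hsA, hs2, hst, hc, hle⟩ := hsec t htA ht2
    have hn2 : A.index * 34650 ≤ 11 * 11 * 1296826875 := by
      have h1 := (Cfsg.Agent.H809.IFC.IF.E4 h hna hsA htA hs2 ht2 hst hc).1
      rw [index_cent L hT hs2, h11 s hsA hs2, h11 t htA ht2] at h1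
      exact (Nat.mul_le_mul_left _ hle).trans h1
    -- the order
    have hidx : A.relIndex (centralizer ({t} : Set T)) = 11 := by
      obtain ⟨L', rfl⟩ := L.exists_rebase (sq_one ht2) (ne_one ht2)
      rcases nat_stab' L' htA (h13 _ htA ht2) with h1 | ⟨h1, -⟩
      · exact absurd h1 (hone _ htA ht2)
      · exact h1
    have hdvd : 3628800 ∣ Nat.card A := by
      have h1 := (A.subgroupOf (centralizer ({t} : Set T))).index_mul_card
      rw [show (A.subgroupOf (centralizer ({t} : Set T))).index = 11 from hidx, card_cent L ht2] at h1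
      have h2 : Nat.card (A.subgroupOf (centralizer ({t} : Set T))) = 3628800 := by omega
      rw [← h2]
      have h3 : (A.subgroupOf (centralizer ({t} : Set T))).map (centralizer ({t} : Set T)).subtype ≤ A := by
        rintro _ ⟨x, hx, rfl⟩
        exact hx
      have h4 := card_dvd_of_le h3
      rwa [Nat.card_congr ((A.subgroupOf (centralizer ({t} : Set T))).equivMapOfInjective _
        (subtype_injective _)).toEquiv.symm] at h4
    obtain ⟨m, hm⟩ := hdvd
    have hprod : A.index * m = 14265095625 := by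
      have h1 := A.index_mul_card
      rw [hm, hT] at h1
      have h2 : 3628800 * (A.index * m) = 3628800 * 14265095625 := by
        calc 3628800 * (A.index * m) = A.index * (3628800 * m) := by ring
          _ = _ := by rw [h1]
      exact Nat.eq_of_mul_eq_mul_left (by norm_num) h2
    exact arith hprod hn1 hn2 hmod

/-- **The row of the Lyons group.** -/
theorem row : Row fun T => Cfsg.Spor.IsoLy T := by
  intro T _ _ _ hna hLy A Γ h
  obtain ⟨-, -, hT, ⟨L⟩⟩ := Cfsg.Agent.TypeM.FactsLy.facts hLy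
  have hna' : ∃ a b : T, a * b ≠ b * a := by
    by_contra hcon
    push Not at hcon
    exact hna ⟨⟨hcon⟩⟩
  exact main hna' hT L (fun σ => by
    obtain ⟨a, ha⟩ := Cfsg.Agent.TypeM.OutLyFin.inner hLy σ
    exact ⟨a, ha.symm⟩) h

end Cfsg.Agent.H698.IFLy
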