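import Cfsg.Agent.H698.IF.Alt11
import Cfsg.Agent.TypeM.CoverTools
import Cfsg.Agent.TypeM.Two
import Cfsg.Agent.H677.IF.SE

/-!
# S5719, the Lyons group: subgroups containing large parts of the centralisers of their involutions (helper698)
-/

set_option autoImplicit false
set_option linter.unusedSectionVars false

namespace Cfsg.Agent.H698.IFLy

open Equiv Subgroup Cfsg.Agent.TypeM.Two Cfsg.Agent.SporRec.TwoAn
open Cfsg.Agent.SporRec.LyType (conjCentEquiv conjCentEquiv_coe card_support_eq_eight)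

variable {T : Type*} [Group T] [Finite T]

/-! ### the cover -/

section cover

variable {C : Type*} [Group C] [Finite C] (K : Cover (Fin 11) C)

theorem card_ker : Nat.card K.π.ker = 2 := by
  rw [Nat.card_eq_two_iff' (1 : K.π.ker)]
  refine ⟨⟨K.z, K.π_z⟩, fun e => K.z_ne (congrArg Subtype.val e), ?_⟩
  rintro ⟨y, hy⟩ hy1
  rcases (K.ker y).1 hy with h1 | h1
  · exact absurd (Subtype.ext h1) hy1
  · exact Subtype.ext h1

include K in
theorem card_C : Nat.card C = 39916800 := by
  have h1 := K.π.ker.index_mul_card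
  rw [Subgroup.index_ker, card_ker K, K.range_eq, card_alt] at h1
  omega

/-- the projection onto `A₁₁` -/
def pr : C →* alternatingGroup (Fin 11) := K.π.codRestrict _ K.mem_alternating

theorem pr_surj : Function.Surjective (pr K) := by
  rintro ⟨σ, hσ⟩
  obtain ⟨g, hg⟩ := K.exists_lift hσ
  exact ⟨g, Subtype.ext hg⟩

theorem pr_ker {x : C} : pr K x = 1 ↔ x = 1 ∨ x = K.z := by
  rw [← K.ker x]
  exact ⟨fun h => congrArg Subtype.val h, fun h => Subtype.ext h⟩

/-- the index of the image -/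
theorem index_map {H : Subgroup C} (hz : K.z ∈ H) : (H.map (pr K)).index = H.index := by
  apply Subgroup.index_map_eq _ (pr_surj K)
  intro x hx
  rcases (pr_ker K).1 hx with rfl | rfl
  · exact H.one_mem
  · exact hz

theorem mem_of_map {H : Subgroup C} (hz : K.z ∈ H) {x : C} (hx : pr K x ∈ H.map (pr K)) : x ∈ H := by
  obtain ⟨y, hy, hyx⟩ := hx
  have h1 : pr K (x * y⁻¹) = 1 := by rw [map_mul, map_inv, hyx, mul_inv_cancel]
  rcases (pr_ker K).1 h1 with h1 | h1
  · rw [mul_inv_eq_one] at h1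
    rwa [h1]
  · rw [mul_inv_eq_iff_eq_mul] at h1
    rw [h1]
    exact H.mul_mem hz hy

/-- (A) -/
theorem exists_second {H : Subgroup C} (hz : K.z ∈ H) (h : H.index ≤ 66) :
    ∃ g ∈ H, g * g = 1 ∧ g ≠ 1 ∧ g ≠ K.z := by
  obtain ⟨σ, ⟨g, hg, rfl⟩, h1, h2⟩ := exists_inv (K := H.map (pr K)) (by rw [index_map K hz]; exact h)
  refine ⟨g, hg, K.sq_eq_one_iff.2 ⟨h1, ?_⟩, ?_, ?_⟩
  · exact h2.symm.dvd
  · rintro rfl
    rw [map_one] at h2
    revert h2
    decide
  · rintro rfl
    have h3 : pr K K.z = 1 := (pr_ker K).2 (Or.inr rfl)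
    rw [h3] at h2
    revert h2
    decide

/-- (B) -/
theorem nat_stab {H : Subgroup C} (hz : K.z ∈ H) (hH : H ≠ ⊤) (h : H.index ≤ 13) :
    H.index = 11 ∧ ∃ i : Fin 11, ∀ g : C, g ∈ H ↔ K.π g i = i := by
  have hne : H.map (pr K) ≠ ⊤ := by
    intro h1
    apply hH
    rw [eq_top_iff]
    intro x _
    exact mem_of_map K hz (by rw [h1]; exact Subgroup.mem_top _)
  have h1 := index_eq hne (by rw [index_map K hz]; exact h)
  refine ⟨by rw [← index_map K hz]; exact h1, ?_⟩
  obtain ⟨i, hi⟩ := eq_stab h1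
  refine ⟨i, fun g => ⟨fun hg => (hi _).1 ⟨g, hg, rfl⟩, fun hg => mem_of_map K hz ((hi _).2 hg)⟩⟩

/-- the number of involutions outside the centre -/
theorem card_inv : 34650 ≤ Nat.card {g : C // g * g = 1 ∧ g ≠ 1 ∧ g ≠ K.z} := by
  have h1 : 34650 = Nat.card ({σ : Perm (Fin 11) // σ.cycleType = {2, 2, 2, 2}} × Fin 2) := by
    rw [Nat.card_prod, card_type, Nat.card_eq_fintype_card, Fintype.card_fin]
  rw [h1]
  have hl : ∀ σ : {σ : Perm (Fin 11) // σ.cycleType = {2, 2, 2, 2}}, ∃ g : C, K.π g = σ := fun σ =>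
    K.exists_lift (type_facts σ.2).2.2
  choose l hl using hl
  have hπ : ∀ (σ : {σ : Perm (Fin 11) // σ.cycleType = {2, 2, 2, 2}}) (b : Fin 2),
      K.π (l σ * K.z ^ b.val) = σ := by
    intro σ b
    rw [map_mul, map_pow, K.π_z, one_pow, mul_one, hl]
  have hmem : ∀ (σ : {σ : Perm (Fin 11) // σ.cycleType = {2, 2, 2, 2}}) (b : Fin 2),
      l σ * K.z ^ b.val * (l σ * K.z ^ b.val) = 1 ∧ l σ * K.z ^ b.val ≠ 1 ∧ l σ * K.z ^ b.val ≠ K.z := by
    intro σ b
    obtain ⟨h2, h3, h4⟩ := type_facts σ.2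
    refine ⟨K.sq_eq_one_iff.2 ⟨by rw [hπ]; exact h2, by rw [hπ, h3]⟩, ?_, ?_⟩
    · intro h5
      have h6 := hπ σ b
      rw [h5, map_one] at h6
      rw [← h6] at h3
      revert h3
      decide
    · intro h5
      have h6 := hπ σ b
      rw [h5, K.π_z] at h6
      rw [← h6] at h3
      revert h3
      decide
  refine Nat.card_le_card_of_injective (fun p => ⟨l p.1 * K.z ^ p.2.val, hmem p.1 p.2⟩) ?_
  rintro ⟨σ, b⟩ ⟨τ, c⟩ h
  have h2 : l σ * K.z ^ b.val = l τ * K.z ^ c.val := congrArg Subtype.val h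
  have h3 : σ = τ := by
    apply Subtype.ext
    rw [← hπ σ b, ← hπ τ c, h2]
  subst h3
  have h4 := mul_left_cancel h2
  refine Prod.ext rfl ?_
  have hb : ∀ b : Fin 2, b = 0 ∨ b = 1 := by decide
  rcases hb b with rfl | rfl <;> rcases hb c with rfl | rfl
  · rfl
  · exfalso
    rw [Fin.val_zero, pow_zero, Fin.val_one, pow_one] at h4
    exact K.z_ne h4.symm
  · exfalso
    rw [Fin.val_zero, pow_zero, Fin.val_one, pow_one] at h4
    exact K.z_ne h4
  · rfl

end cover

/-! ### the group -/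

section main

theorem sq_one {t : T} (ht : orderOf t = 2) : t * t = 1 := by rw [← pow_two, ← ht, pow_orderOf_eq_one]

theorem ne_one {t : T} (ht : orderOf t = 2) : t ≠ 1 := by
  rintro rfl
  rw [orderOf_one] at ht
  omega

theorem ord_two {t : T} (h : t * t = 1) (h1 : t ≠ 1) : orderOf t = 2 := orderOf_eq_prime (by rw [pow_two, h]) h1

variable (L : MT 11 T)

include L in
theorem card_cent {t : T} (ht : orderOf t = 2) : Nat.card (centralizer ({t} : Set T)) = 39916800 := by
  obtain ⟨L', rfl⟩ := L.exists_rebase (sq_one ht) (ne_one ht)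
  exact card_C L'.K

include L in
theorem index_cent (hT : Nat.card T = 51765179004000000) {t : T} (ht : orderOf t = 2) :
    (centralizer ({t} : Set T)).index = 1296826875 := by
  have h1 := (centralizer ({t} : Set T)).index_mul_card
  rw [card_cent L ht, hT] at h1
  omega

theorem z_mem {A : Subgroup T} (hA : L.t ∈ A) : L.K.z ∈ A.subgroupOf (centralizer ({L.t} : Set T)) := by
  rw [Subgroup.mem_subgroupOf, L.hz]
  exact hA

/-- (A') -/
theorem exists_second' {A : Subgroup T} (hA : L.t ∈ A) (h : A.relIndex (centralizer ({L.t} : Set T)) ≤ 66) :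
    ∃ s ∈ A, orderOf s = 2 ∧ s ≠ L.t ∧ s * L.t = L.t * s := by
  obtain ⟨g, hg, h1, h2, h3⟩ := exists_second L.K (z_mem L hA) h
  refine ⟨g, hg, ord_two (congrArg Subtype.val h1) (fun e => h2 (Subtype.ext e)),
    fun e => h3 (Subtype.ext (e.trans L.hz.symm)), mem_centralizer_singleton_iff.1 g.2⟩

/-- (B') -/
theorem nat_stab' {A : Subgroup T} (hA : L.t ∈ A) (h : A.relIndex (centralizer ({L.t} : Set T)) ≤ 13) :
    centralizer ({L.t} : Set T) ≤ A ∨ (A.relIndex (centralizer ({L.t} : Set T)) = 11 ∧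
      ∃ i : Fin 11, ∀ g : centralizer ({L.t} : Set T), (g : T) ∈ A ↔ L.K.π g i = i) := by
  by_cases h1 : centralizer ({L.t} : Set T) ≤ A
  · exact Or.inl h1
  · right
    obtain ⟨h2, i, hi⟩ := nat_stab L.K (z_mem L hA) (fun h2 => h1 (Subgroup.subgroupOf_eq_top.1 h2)) h
    exact ⟨h2, i, fun g => hi g⟩

/-- (C') -/
theorem le_relIndex {s : T} (hs : orderOf s = 2) (hst : s ≠ L.t) (hc : s * L.t = L.t * s) :
    34650 ≤ (centralizer ({s} : Set T)).relIndex (centralizer ({L.t} : Set T)) := by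
  refine (card_inv L.K).trans ?_
  let s' : centralizer ({L.t} : Set T) := ⟨s, mem_centralizer_singleton_iff.2 hc⟩
  have hex : ∀ r : {g : centralizer ({L.t} : Set T) // g * g = 1 ∧ g ≠ 1 ∧ g ≠ L.K.z}, ∃ c : centralizer ({L.t} : Set T),
      c * s' * c⁻¹ = r := by
    intro r
    refine Cfsg.Agent.SporRec.LyType.isConj_of_involutions L.K (by rw [Fintype.card_fin]; norm_num)
      (Subtype.ext (sq_one hs)) (fun e => ne_one hs (congrArg Subtype.val e))
      (fun e => hst ((congrArg Subtype.val e).trans L.hz)) r.2.1 r.2.2.1 r.2.2.2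
  choose c hc using hex
  rw [Subgroup.relIndex, Subgroup.index]
  refine Nat.card_le_card_of_injective (fun r => (c r : centralizer ({L.t} : Set T) ⧸
    (centralizer ({s} : Set T)).subgroupOf (centralizer ({L.t} : Set T)))) ?_
  intro r r' h
  have h1 := QuotientGroup.eq.1 h
  rw [Subgroup.mem_subgroupOf, mem_centralizer_singleton_iff] at h1
  have h2 : (c r)⁻¹ * c r' * s' = s' * ((c r)⁻¹ * c r') := Subtype.ext h1
  apply Subtype.ext
  rw [← hc r, ← hc r']
  calc c r * s' * (c r)⁻¹ = c r * (s' * ((c r)⁻¹ * c r')) * (c r')⁻¹ := by group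
    _ = c r * ((c r)⁻¹ * c r' * s') * (c r')⁻¹ := by rw [h2]
    _ = c r' * s' * (c r')⁻¹ := by group

/-- (D') -/
theorem step {A : Subgroup T} {t : T} (ht : orderOf t = 2) (h : centralizer ({t} : Set T) ≤ A) (hst : L.t ≠ t)
    (hc : L.t * t = t * L.t) (h13 : A.relIndex (centralizer ({L.t} : Set T)) ≤ 13) : centralizer ({L.t} : Set T) ≤ A := by
  have hA : L.t ∈ A := h (mem_centralizer_singleton_iff.2 hc)
  rcases nat_stab' L hA h13 with h1 | ⟨-, i, hi⟩
  · exact h1
  · exfalso
    let t' : centralizer ({L.t} : Set T) := ⟨t, mem_centralizer_singleton_iff.2 hc.symm⟩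
    have h2 : ∀ g : centralizer ({L.t} : Set T), (g : T) * t = t * g → L.K.π g i = i := fun g hg =>
      (hi g).1 (h (mem_centralizer_singleton_iff.2 hg))
    have hi' : L.K.π t' i = i := h2 t' rfl
    have h8 : (L.K.π t').support.card = 8 := card_support_eq_eight L.K (by rw [Fintype.card_fin]; norm_num)
      (Subtype.ext (sq_one ht)) (fun e => ne_one ht (congrArg Subtype.val e))
      (fun e => hst ((congrArg Subtype.val e).trans L.hz).symm)
    have h3 : ((L.K.π t').supportᶜ).card = 3 := by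
      rw [Finset.card_compl, h8, Fintype.card_fin]
    have h4 : ((L.K.π t').supportᶜ.erase i).card = 2 := by
      rw [Finset.card_erase_of_mem (by rw [Finset.mem_compl, Perm.notMem_support]; exact hi'), h3]
    obtain ⟨j, k, hjk, hjk'⟩ := Finset.card_eq_two.1 h4
    have hj : j ∈ (L.K.π t').supportᶜ.erase i := by rw [hjk']; exact Finset.mem_insert_self _ _
    have hk : k ∈ (L.K.π t').supportᶜ.erase i := by
      rw [hjk']; exact Finset.mem_insert_of_mem (Finset.mem_singleton_self _)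
    rw [Finset.mem_erase, Finset.mem_compl, Perm.notMem_support] at hj hk
    obtain ⟨y, hy⟩ := L.K.exists_lift (Cover.swap_mul_swap_mem i j j k hj.1.symm hjk)
    have hd : (L.K.π y).Disjoint (L.K.π t') := by
      intro x
      rw [hy]
      by_cases hx : x = i ∨ x = j ∨ x = k
      · right
        rcases hx with rfl | rfl | rfl
        · exact hi'
        · exact hj.2
        · exact hk.2
      · left
        push Not at hx
        rw [Perm.mul_apply, swap_apply_of_ne_of_ne hx.2.1 hx.2.2, swap_apply_of_ne_of_ne hx.1 hx.2.1]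
    have h5 := L.K.commute_of_disjoint hd
    have h6 := h2 y (congrArg Subtype.val h5)
    rw [hy, Perm.mul_apply, swap_apply_of_ne_of_ne hj.1.symm hk.1.symm, swap_apply_left] at h6
    exact hj.1 h6

end main

end Cfsg.Agent.H698.IFLy
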