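import Cfsg.Agent.H698.IF.LyA

/-!
# S5719, the Lyons group: fixed points of involutions on the cosets of `A` (helper698)

If `C_A(t) = 2.A₁₀` for all involutions `t` of `A` and `t` fixes at most 13 points then `|T : A| ≡ 27 mod 32`.
-/

set_option autoImplicit false
set_option linter.unusedSectionVars false
set_option maxRecDepth 100000

namespace Cfsg.Agent.H698.IFLy

open Equiv Subgroup Cfsg.Agent.TypeM.Two Cfsg.Agent.SporRec.TwoAn
open Cfsg.Agent.SporRec.LyType (conjCentEquiv conjCentEquiv_coe card_support_eq_eight)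
open Cfsg.Agent.H677.SE (exists_sylow exists_cen exists_into ord_conj)

variable {T : Type*} [Group T] [Finite T]

/-- (E') -/
theorem all_of_one (L : MT 11 T) {A : Subgroup T}
    (h13 : ∀ t ∈ A, orderOf t = 2 → A.relIndex (centralizer ({t} : Set T)) ≤ 13)
    {t : T} (ht : orderOf t = 2) (htA : centralizer ({t} : Set T) ≤ A) {u : T} (huA : u ∈ A) (hu : orderOf u = 2) :
    centralizer ({u} : Set T) ≤ A := by
  have hstep : ∀ t s : T, orderOf t = 2 → orderOf s = 2 → s * t = t * s → centralizer ({t} : Set T) ≤ A →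
      centralizer ({s} : Set T) ≤ A := by
    intro t s ht hs hc h
    by_cases hst : s = t
    · rw [hst]; exact h
    · obtain ⟨L', rfl⟩ := L.exists_rebase (sq_one hs) (ne_one hs)
      exact step L' ht h hst hc (h13 _ (h (mem_centralizer_singleton_iff.2 hc)) hs)
  obtain ⟨P, htP⟩ := exists_sylow ht
  obtain ⟨z, hzP, hz, hzc⟩ := exists_cen P htP ht
  have hzA : centralizer ({z} : Set T) ≤ A := hstep t z ht hz (hzc t htP) htA
  have hPA : (P : Subgroup T) ≤ A := fun x hx => hzA (mem_centralizer_singleton_iff.2 (hzc x hx).symm)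
  obtain ⟨a, haA, ha⟩ := exists_into P hPA hu huA
  have h1 := hstep z (a * u * a⁻¹) hz (ord_conj a hu) (hzc _ ha).symm hzA
  intro x hx
  rw [mem_centralizer_singleton_iff] at hx
  have h2 : a * x * a⁻¹ ∈ A := by
    apply h1
    rw [mem_centralizer_singleton_iff]
    calc a * x * a⁻¹ * (a * u * a⁻¹) = a * (x * u) * a⁻¹ := by group
      _ = a * (u * x) * a⁻¹ := by rw [hx]
      _ = _ := by group
  have h3 := A.mul_mem (A.mul_mem (A.inv_mem haA) h2) haA
  have h4 : a⁻¹ * (a * x * a⁻¹) * a = x := by group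
  rwa [h4] at h3

theorem smul_eq_iff {A : Subgroup T} {g y : T} : g • (y : T ⧸ A) = y ↔ y⁻¹ * g * y ∈ A := by
  have : g • (y : T ⧸ A) = ((g * y : T) : T ⧸ A) := rfl
  rw [this, eq_comm, QuotientGroup.eq, mul_assoc]

/-- natural action at the base point -/
def Nat' (A : Subgroup T) : Prop := ∀ M : MT 11 T, M.t ∈ A →
  ∃ i : Fin 11, ∀ g : centralizer ({M.t} : Set T), (g : T) ∈ A ↔ M.K.π g i = i

/-- natural action at every fixed point -/
theorem nat_pt {A : Subgroup T} (hN : Nat' A) (L : MT 11 T) {β : T ⧸ A} (hβ : L.t • β = β) :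
    ∃ i : Fin 11, ∀ g : centralizer ({L.t} : Set T), (g : T) • β = β ↔ L.K.π g i = i := by
  obtain ⟨y, rfl⟩ := QuotientGroup.mk_surjective β
  have h1 := smul_eq_iff.1 hβ
  have h0 : y⁻¹ * L.t * y⁻¹⁻¹ = y⁻¹ * L.t * y⁻¹⁻¹ := rfl
  obtain ⟨i, hi⟩ := hN (L.rebase y⁻¹ h0) (by
    show y⁻¹ * L.t * y⁻¹⁻¹ ∈ A
    rw [inv_inv]
    exact h1)
  refine ⟨i, fun g => ?_⟩
  have h2 := hi (conjCentEquiv y⁻¹ h0 g)
  have h3 : (L.rebase y⁻¹ h0).K.π (conjCentEquiv y⁻¹ h0 g) = L.K.π g :=
    congrArg L.K.π ((conjCentEquiv y⁻¹ h0).symm_apply_apply g)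
  rw [h3, conjCentEquiv_coe, inv_inv] at h2
  rw [← h2]
  exact smul_eq_iff

theorem exists_even : ∀ i j : Fin 11, ∃ k : Fin 11, ((finRotate 11) ^ k.val) i = j := by decide +kernel

theorem exists_lift' (L : MT 11 T) (i j : Fin 11) : ∃ g : centralizer ({L.t} : Set T), L.K.π g i = j := by
  obtain ⟨k, hk⟩ := exists_even i j
  have h7 : finRotate 11 ∈ alternatingGroup (Fin 11) := by
    rw [Perm.mem_alternatingGroup]
    decide +kernel
  obtain ⟨g, hg⟩ := L.K.exists_lift (Subgroup.pow_mem _ h7 k.val)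
  exact ⟨g, by rw [hg, hk]⟩

theorem exists_phi {A : Subgroup T} (L : MT 11 T) {β : T ⧸ A} {i : Fin 11}
    (hβ : ∀ g : centralizer ({L.t} : Set T), (g : T) • β = β ↔ L.K.π g i = i) :
    ∃ φ : Fin 11 → T ⧸ A, Function.Injective φ ∧
      (∀ (k : centralizer ({L.t} : Set T)) (j : Fin 11), (k : T) • φ j = φ (L.K.π k j)) ∧ φ i = β := by
  choose γ hγ using exists_lift' L i
  have key : ∀ k : centralizer ({L.t} : Set T), (k : T) • β = (γ (L.K.π k i) : T) • β := by
    intro k
    have h1 : L.K.π ((γ (L.K.π k i))⁻¹ * k) i = i := by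
      rw [map_mul, map_inv, Perm.mul_apply, Perm.inv_eq_iff_eq, hγ]
    have h2 := (hβ _).2 h1
    rw [Subgroup.coe_mul, Subgroup.coe_inv, mul_smul, inv_smul_eq_iff] at h2
    exact h2
  refine ⟨fun j => (γ j : T) • β, ?_, ?_, ?_⟩
  · intro j k hjk
    have h1 : (((γ k)⁻¹ * γ j : centralizer ({L.t} : Set T)) : T) • β = β := by
      rw [Subgroup.coe_mul, Subgroup.coe_inv, mul_smul, inv_smul_eq_iff]
      exact hjk
    have h2 := (hβ _).1 h1
    rw [map_mul, map_inv, Perm.mul_apply, Perm.inv_eq_iff_eq, hγ, hγ] at h2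
    exact h2
  · intro k j
    show (k : T) • (γ j : T) • β = (γ (L.K.π k j) : T) • β
    have h1 := key (k * γ j)
    rw [Subgroup.coe_mul, mul_smul, map_mul, Perm.mul_apply, hγ] at h1
    exact h1
  · have h1 := key 1
    rw [Subgroup.coe_one, one_smul, map_one, Perm.one_apply] at h1
    exact h1.symm

/-- the fixed points -/
def F (A : Subgroup T) (u : T) : Set (T ⧸ A) := {β | u • β = β}

theorem mem_F {A : Subgroup T} {u : T} {β : T ⧸ A} : β ∈ F A u ↔ u • β = β := Iff.rfl

/-- one orbit -/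
theorem exists_phi' {A : Subgroup T} (hN : Nat' A) (L : MT 11 T) (hne : (F A L.t).Nonempty)
    (h13 : (F A L.t).ncard ≤ 13) :
    ∃ φ : Fin 11 → T ⧸ A, Function.Injective φ ∧
      (∀ (k : centralizer ({L.t} : Set T)) (j : Fin 11), (k : T) • φ j = φ (L.K.π k j)) ∧ Set.range φ = F A L.t := by
  have ht : L.t ∈ centralizer ({L.t} : Set T) := mem_centralizer_singleton_iff.2 rfl
  have hπt : L.K.π ⟨L.t, ht⟩ = 1 := by
    rw [L.K.ker]
    exact Or.inr (Subtype.ext L.hz.symm)
  have hrange : ∀ φ : Fin 11 → T ⧸ A, (∀ (k : centralizer ({L.t} : Set T)) (j : Fin 11), (k : T) • φ j = φ (L.K.π k j)) →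
      Set.range φ ⊆ F A L.t := by
    rintro φ hφ _ ⟨j, rfl⟩
    have h1 := hφ ⟨L.t, ht⟩ j
    rw [hπt, Perm.one_apply] at h1
    exact h1
  obtain ⟨β, hβ⟩ := hne
  obtain ⟨i, hi⟩ := nat_pt hN L hβ
  obtain ⟨φ, hφ1, hφ2, hφ3⟩ := exists_phi L hi
  refine ⟨φ, hφ1, hφ2, le_antisymm (hrange φ hφ2) ?_⟩
  intro β' hβ'
  by_contra hcon
  obtain ⟨i', hi'⟩ := nat_pt hN L hβ'
  obtain ⟨φ', hφ1', hφ2', hφ3'⟩ := exists_phi L hi'
  have hd : Disjoint (Set.range φ) (Set.range φ') := by
    rw [Set.disjoint_left]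
    rintro _ ⟨j, rfl⟩ ⟨j', hj'⟩
    apply hcon
    obtain ⟨k, hk⟩ := exists_lift' L j' i'
    refine ⟨L.K.π k j, ?_⟩
    rw [← hφ2, ← hj', hφ2', hk, hφ3']
  have h1 : (Set.range φ ∪ Set.range φ').ncard = 22 := by
    rw [Set.ncard_union_eq hd (Set.toFinite _) (Set.toFinite _), ← Set.image_univ, ← Set.image_univ,
      Set.ncard_image_of_injective _ hφ1, Set.ncard_image_of_injective _ hφ1', Set.ncard_univ, Nat.card_eq_fintype_card,
      Fintype.card_fin]
  have h2 := Set.ncard_le_ncard (Set.union_subset (hrange φ hφ2) (hrange φ' hφ2')) (Set.toFinite _)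
  omega

theorem ncard_F {A : Subgroup T} (hN : Nat' A) (L : MT 11 T) (hne : (F A L.t).Nonempty) (h13 : (F A L.t).ncard ≤ 13) :
    (F A L.t).ncard = 11 := by
  obtain ⟨φ, hφ1, -, hφ3⟩ := exists_phi' hN L hne h13
  rw [← hφ3, ← Set.image_univ, Set.ncard_image_of_injective _ hφ1, Set.ncard_univ, Nat.card_eq_fintype_card,
      Fintype.card_fin]

theorem ncard_inter {A : Subgroup T} (hN : Nat' A) (L : MT 11 T) (hne : (F A L.t).Nonempty)
    (h13 : (F A L.t).ncard ≤ 13) {s : centralizer ({L.t} : Set T)} (hs : (L.K.π s).support.card = 8) :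
    (F A L.t ∩ F A (s : T)).ncard = 3 := by
  obtain ⟨φ, hφ1, hφ2, hφ3⟩ := exists_phi' hN L hne h13
  have h1 : F A L.t ∩ F A (s : T) = φ '' ((L.K.π s).supportᶜ : Finset (Fin 11)) := by
    ext β
    rw [← hφ3]
    constructor
    · rintro ⟨⟨j, rfl⟩, hj⟩
      refine ⟨j, ?_, rfl⟩
      rw [mem_F, hφ2] at hj
      rw [Finset.mem_coe, Finset.mem_compl, Perm.notMem_support]
      exact hφ1 hj
    · rintro ⟨j, hj, rfl⟩
      rw [Finset.mem_coe, Finset.mem_compl, Perm.notMem_support] at hj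
      refine ⟨⟨j, rfl⟩, ?_⟩
      rw [mem_F, hφ2, hj]
  rw [h1, Set.ncard_image_of_injective _ hφ1, Set.ncard_coe_finset, Finset.card_compl, hs, Fintype.card_fin]

/-- points with a trivial stabiliser -/
theorem card_mod {Q X : Type*} [Group Q] [Finite Q] [MulAction Q X] [Finite X] :
    ∃ k, Nat.card X = {x : X | ∃ q : Q, q ≠ 1 ∧ q • x = x}.ncard + k * Nat.card Q := by
  set U : Set X := {x : X | ∃ q : Q, q ≠ 1 ∧ q • x = x} with hU
  let Y : SubMulAction Q X :=
    { carrier := Uᶜ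
      smul_mem' := by
        intro g x hx hgx
        apply hx
        obtain ⟨q, hq, hqx⟩ := hgx
        refine ⟨g⁻¹ * q * g, ?_, ?_⟩
        · intro h
          apply hq
          have h1 : q = g * (g⁻¹ * q * g) * g⁻¹ := by group
          rw [h1, h]
          group
        · rw [mul_smul, mul_smul, hqx, inv_smul_smul] }
  have h1 : Nat.card Q ∣ Nat.card Y := by
    apply card_dvd_of_free
    rintro g hg ⟨x, hx⟩ h
    exact hx ⟨g, hg, congrArg Subtype.val h⟩
  obtain ⟨k, hk⟩ := h1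
  refine ⟨k, ?_⟩
  have h2 : Nat.card Y = Uᶜ.ncard := rfl
  rw [mul_comm k, ← hk, h2, Set.ncard_add_ncard_compl]

theorem arith1 {a b c d : ℕ} (h1 : a * b = 39916800) (h3 : a * c = d) (h4 : d * 16 = 39916800)
    (h5 : c * 19958400 = 39916800) : b = 32 := by
  have h7 : c = 2 := by omega
  subst h7
  have h8 : a = 1247400 := by omega
  subst h8
  omega

/-- the preimage of the group `4 × 4` -/
theorem card_Q (L : MT 11 T) : Nat.card (Q16.comap L.K.π) = 32 := by
  have h1 := (Q16.comap L.K.π).index_mul_card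
  rw [Subgroup.index_comap, L.K.range_eq, card_C L.K] at h1
  have h2 : Q16 ≤ alternatingGroup (Fin 11) := by
    rintro _ ⟨i, j, rfl⟩
    exact ab_mem i j
  have h3 := Subgroup.relIndex_mul_index h2
  have h4 := Q16.index_mul_card
  rw [card_Q16, Nat.card_eq_fintype_card, Fintype.card_perm, Fintype.card_fin] at h4
  have h5 := (alternatingGroup (Fin 11)).index_mul_card
  rw [card_alt, Nat.card_eq_fintype_card, Fintype.card_perm, Fintype.card_fin] at h5
  have h6 : Nat.factorial 11 = 39916800 := by decide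
  rw [h6] at h4 h5
  exact arith1 h1 h3 h4 h5

theorem index_mod {A : Subgroup T} (hN : Nat' A) (L : MT 11 T)
    (hF : ∀ u : T, orderOf u = 2 → (F A u).Nonempty ∧ (F A u).ncard ≤ 13) : A.index % 32 = 27 := by
  obtain ⟨s, hs⟩ := L.K.exists_lift (ab_mem 2 2)
  have hss : s * s = 1 := L.K.sq_eq_one_iff.2 ⟨by rw [hs]; exact ab22_sq, by rw [hs, ab22_supp]⟩
  have h22 : ab 2 2 ≠ 1 := by
    intro h
    have := ab22_supp
    rw [h] at this
    revert this
    decide
  have hs1 : s ≠ 1 := by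
    rintro rfl
    rw [map_one] at hs
    exact h22 hs.symm
  have hsz : s ≠ L.K.z := by
    rintro rfl
    rw [L.K.π_z] at hs
    exact h22 hs.symm
  have hszz : s * L.K.z ≠ 1 := by
    intro h
    apply hsz
    rw [mul_eq_one_iff_eq_inv, L.K.z_inv] at h
    exact h
  have hsz2 : s * L.K.z * (s * L.K.z) = 1 := by
    calc s * L.K.z * (s * L.K.z) = s * (L.K.z * s) * L.K.z := by group
      _ = s * (s * L.K.z) * L.K.z := by rw [← L.K.z_comm s]
      _ = (s * s) * (L.K.z * L.K.z) := by group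
      _ = 1 := by rw [hss, L.K.z_mul_z, one_mul]
  have ht2 : orderOf L.t = 2 := L.orderOf_t
  have hs2 : orderOf (s : T) = 2 := ord_two (congrArg Subtype.val hss) (fun e => hs1 (Subtype.ext e))
  have hr2 : orderOf ((s * L.K.z : centralizer ({L.t} : Set T)) : T) = 2 :=
    ord_two (congrArg Subtype.val hsz2) (fun e => hszz (Subtype.ext e))
  have h11 : ∀ u : T, orderOf u = 2 → (F A u).ncard = 11 := by
    intro u hu
    obtain ⟨L', rfl⟩ := L.exists_rebase (sq_one hu) (ne_one hu)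
    exact ncard_F hN L' (hF _ hu).1 (hF _ hu).2
  have h3 : (F A L.t ∩ F A (s : T)).ncard = 3 :=
    ncard_inter hN L (hF _ ht2).1 (hF _ ht2).2 (by rw [hs, ab22_supp])
  set r : T := ((s * L.K.z : centralizer ({L.t} : Set T)) : T) with hr
  have hrst : r = (s : T) * L.t := by rw [hr, Subgroup.coe_mul, L.hz]
  have hUi : (F A L.t ∪ F A (s : T)) ∩ F A r = F A L.t ∩ F A (s : T) := by
    ext β
    simp only [Set.mem_inter_iff, Set.mem_union, mem_F]
    rw [hrst, mul_smul]
    constructor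
    · rintro ⟨h | h, h'⟩
      · rw [h] at h'
        exact ⟨h, h'⟩
      · have h4 : (s : T) • L.t • β = (s : T) • β := by rw [h', h]
        exact ⟨smul_left_cancel _ h4, h⟩
    · rintro ⟨h, h'⟩
      exact ⟨Or.inl h, by rw [h, h']⟩
  have hU27 : ((F A L.t ∪ F A (s : T)) ∪ F A r).ncard = 27 := by
    have h4 := Set.ncard_union_add_ncard_inter (F A L.t) (F A (s : T)) (Set.toFinite _) (Set.toFinite _)
    have h5 := Set.ncard_union_add_ncard_inter (F A L.t ∪ F A (s : T)) (F A r) (Set.toFinite _) (Set.toFinite _)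
    rw [hUi, h3, h11 r hr2] at h5
    rw [h3, h11 _ ht2, h11 _ hs2] at h4
    omega
  obtain ⟨k, hk⟩ := card_mod (Q := Q16.comap L.K.π) (X := T ⧸ A)
  have hQc := card_Q L
  have hU : {x : T ⧸ A | ∃ q : Q16.comap L.K.π, q ≠ 1 ∧ q • x = x} = (F A L.t ∪ F A (s : T)) ∪ F A r := by
    ext x
    constructor
    · rintro ⟨q, hq1, hqx⟩
      have hd : orderOf q ∣ 2 ^ 5 := by
        have := orderOf_dvd_natCard q
        rwa [hQc] at this
      obtain ⟨m, hm, hm2⟩ := (Nat.dvd_prime_pow Nat.prime_two).1 hd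
      have hm0 : m ≠ 0 := by
        rintro rfl
        rw [pow_zero, orderOf_eq_one_iff] at hm2
        exact hq1 hm2
      obtain ⟨l, rfl⟩ := Nat.exists_eq_succ_of_ne_zero hm0
      set p := q ^ (2 ^ l) with hp
      have hp2 : orderOf p = 2 := by
        rw [hp, orderOf_pow, hm2, Nat.gcd_eq_right (pow_dvd_pow 2 (Nat.le_succ l)), Nat.succ_eq_add_one, pow_succ]
        exact Nat.mul_div_cancel_left 2 (pow_pos (by norm_num) l)
      have hpx : p • x = x := by
        have h4 : q ∈ MulAction.stabilizer (Q16.comap L.K.π) x := hqx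
        exact (MulAction.stabilizer (Q16.comap L.K.π) x).pow_mem h4 _
      have hpp : (p : centralizer ({L.t} : Set T)) * p = 1 := by
        have : p * p = 1 := by rw [← pow_two, ← hp2, pow_orderOf_eq_one]
        exact congrArg Subtype.val this
      have hp1 : (p : centralizer ({L.t} : Set T)) ≠ 1 := by
        intro h4
        have h5 : p = 1 := Subtype.ext h4
        rw [h5, orderOf_one] at hp2
        omega
      obtain ⟨h4, h5⟩ := L.K.sq_eq_one_iff.1 hpp
      obtain ⟨i, j, hij⟩ : L.K.π p ∈ Q16 := p.2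
      rw [hij] at h4 h5
      rcases ab_invol i j h4 h5 with h6 | h6
      · rw [h6] at hij
        rcases (L.K.ker _).1 hij with h7 | h7
        · exact absurd h7 hp1
        · left; left
          have h8 : ((p : centralizer ({L.t} : Set T)) : T) = L.t := by rw [h7, L.hz]
          rw [mem_F, ← h8]
          exact hpx
      · rw [h6, ← hs] at hij
        rcases L.K.lift_eq hij with h7 | h7
        · left; right
          rw [mem_F, ← h7]
          exact hpx
        · right
          rw [mem_F, hr, ← h7]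
          exact hpx
    · have hQ : ∀ (c : centralizer ({L.t} : Set T)), L.K.π c ∈ Q16 → c ≠ 1 → (c : T) • x = x →
          x ∈ {x : T ⧸ A | ∃ q : Q16.comap L.K.π, q ≠ 1 ∧ q • x = x} := by
        intro c hc hc1 hcx
        exact ⟨⟨c, hc⟩, fun e => hc1 (congrArg Subtype.val e), hcx⟩
      rintro ((h | h) | h)
      · exact hQ L.K.z (by rw [L.K.π_z]; exact one_mem _) L.K.z_ne (by rw [L.hz]; exact h)
      · exact hQ s (by rw [hs]; exact ⟨2, 2, rfl⟩) hs1 h
      · exact hQ (s * L.K.z) (by rw [map_mul, L.K.π_z, mul_one, hs]; exact ⟨2, 2, rfl⟩) hszz h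
  rw [hU, hU27, hQc] at hk
  have h4 : A.index = Nat.card (T ⧸ A) := rfl
  rw [h4, hk]
  omega

end Cfsg.Agent.H698.IFLy
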